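import Mathlib
import Cfsg.Agent.H25.VM

/-! Class trees along a polycyclic series of a Sylow `3`-subgroup. -/

set_option linter.all false

namespace Cfsg.Agent.H25.PcT
open Cfsg.Agent.H25

variable {G : Type*} [Group G]

def Pk (g : ℕ → G) (n k : ℕ) : Subgroup G := Subgroup.closure {y | ∃ a, k ≤ a ∧ a < n ∧ y = g a}

noncomputable def inR (k n : ℕ) (w : List ℕ) : Bool :=
  allL (fun a => band (Nat.ble k a) (Nat.ble (Nat.succ a) n)) w

theorem inR_sound {k n : ℕ} {w : List ℕ} (h : inR k n w = true) : ∀ a ∈ w, k ≤ a ∧ a < n := fun a ha => by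
  have := allL_sound h a ha
  simp only [band_eq, Bool.and_eq_true, Nat.ble_eq] at this
  exact this

theorem ev_Pk {g : ℕ → G} {k n : ℕ} {w : List ℕ} (h : inR k n w = true) : ev g w ∈ Pk g n k :=
  ev_mem fun a ha => Subgroup.subset_closure ⟨a, (inR_sound h a ha).1, (inR_sound h a ha).2, rfl⟩

theorem Pk_mono {g : ℕ → G} {n k l : ℕ} (h : k ≤ l) : Pk g n l ≤ Pk g n k :=
  Subgroup.closure_mono fun _ ⟨a, h1, h2, h3⟩ => ⟨a, h.trans h1, h2, h3⟩

theorem Pk_top (g : ℕ → G) (n : ℕ) : Pk g n n = ⊥ := by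
  rw [Pk, Subgroup.closure_eq_bot_iff]
  rintro _ ⟨a, h1, h2, -⟩; omega

structure PC (g : ℕ → G) (n m : ℕ) : Prop where
  le : n ≤ m
  nrm : ∀ b < m, ∀ k < n, (g b)⁻¹ * g k * g b ∈ Pk g n k
  cube : ∀ k < n, g k ^ 3 = 1

variable {g : ℕ → G} {n m : ℕ}

theorem PC.let (h : PC g n m) {b k : ℕ} (hb : b < m) {y : G} (hy : y ∈ Pk g n k) :
    (g b)⁻¹ * y * g b ∈ Pk g n k := by
  induction hy using Subgroup.closure_induction with
  | mem y hy => obtain ⟨a, h1, h2, rfl⟩ := hy; exact Pk_mono h1 (h.nrm b hb a h2)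
  | one => simpa using Subgroup.one_mem _
  | mul x y _ _ hx hy => simpa [mul_assoc] using Subgroup.mul_mem _ hx hy
  | inv x _ hx => simpa [mul_assoc] using Subgroup.inv_mem _ hx

theorem PC.wd (h : PC g n m) {k : ℕ} {c : List ℕ} (hc : ∀ a ∈ c, a < m) : ∀ {y : G}, y ∈ Pk g n k →
    (ev g c)⁻¹ * y * ev g c ∈ Pk g n k := by
  induction c with
  | nil => intro y hy; simpa using hy
  | cons a c ih =>
    intro y hy
    simpa [mul_assoc] using ih (fun b hb => hc b (by simp [hb])) (h.let (hc a (by simp)) hy)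

theorem PC.dec [Finite G] (h : PC g n m) {k : ℕ} (hk : k < n) {y : G} (hy : y ∈ Pk g n k) :
    ∃ e < 3, ∃ z ∈ Pk g n (k + 1), y = g k ^ e * z := by
  have := mem_of_closed (P := fun y => ∃ e : ℕ, ∃ z ∈ Pk g n (k + 1), y = g k ^ e * z)
    ⟨0, 1, Subgroup.one_mem _, by simp⟩ (by
      rintro _ ⟨e, z, hz, rfl⟩ _ ⟨a, h1, h2, rfl⟩
      rcases h1.eq_or_lt with rfl | h1
      · exact ⟨e + 1, _, h.let (hk.trans_le h.le) hz, by rw [pow_succ]; group⟩
      · exact ⟨e, _, Subgroup.mul_mem _ hz (Subgroup.subset_closure ⟨a, h1, h2, rfl⟩), mul_assoc _ _ _⟩)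
    y hy
  obtain ⟨e, z, hz, rfl⟩ := this
  refine ⟨e % 3, Nat.mod_lt _ (by norm_num), z, hz, ?_⟩
  conv_lhs => rw [← Nat.div_add_mod e 3, pow_add, pow_mul, h.cube k hk, one_pow, one_mul]

theorem PC.card [Finite G] (h : PC g n m) : ∀ j ≤ n, Nat.card (Pk g n (n - j)) ≤ 3 ^ j := by
  intro j
  induction j with
  | zero => intro _; rw [Nat.sub_zero, Pk_top]; simp
  | succ j ih =>
    intro hj
    have e : n - j = n - (j + 1) + 1 := by omega
    have h1 := ih (by omega)
    rw [e] at h1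
    have hk : n - (j + 1) < n := by omega
    have : Nat.card (Pk g n (n - (j + 1))) ≤ Nat.card (Fin 3 × Pk g n (n - (j + 1) + 1)) := by
      refine Nat.card_le_card_of_surjective (fun p => ⟨g (n - (j + 1)) ^ (p.1 : ℕ) * p.2,
        Subgroup.mul_mem _ (Subgroup.pow_mem _ (show g _ ∈ Pk g n _ from
          Subgroup.subset_closure ⟨_, le_rfl, hk, rfl⟩) _)
          (Pk_mono (Nat.le_succ _) p.2.2)⟩) ?_
      rintro ⟨y, hy⟩
      obtain ⟨e, he, z, hz, rfl⟩ := h.dec hk hy
      exact ⟨(⟨e, he⟩, ⟨z, hz⟩), rfl⟩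
    rw [Nat.card_prod, Nat.card_eq_fintype_card (α := Fin 3), Fintype.card_fin] at this
    rw [pow_succ]; omega

def Good (g : ℕ → G) (R : List (List ℕ)) (x : G) : Prop :=
  x ^ 3 = 1 → ∃ r < R.length, IsConj x (ev g (gd [] R r))

theorem Good.conj {R : List (List ℕ)} {x c : G} (h : Good g R (c⁻¹ * x * c)) : Good g R x := fun h3 => by
  obtain ⟨r, hr, e⟩ := h (by rw [cpw, h3]; simp)
  exact ⟨r, hr, (isConj_iff.2 ⟨c⁻¹, by simp⟩).trans e⟩

def Cl (g : ℕ → G) (R : List (List ℕ)) (n k : ℕ) (w : List ℕ) : Prop :=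
  ∀ y ∈ Pk g n k, Good g R (ev g w * y)

theorem PC.step [Finite G] (h : PC g n m) {R : List (List ℕ)} {k : ℕ} (hk : k < n) {w : List ℕ}
    (H : ∀ e < 3, Cl g R n (k + 1) (app w (pw [k] e))) : Cl g R n k w := fun y hy => by
  obtain ⟨e, he, z, hz, rfl⟩ := h.dec hk hy
  have := H e he z hz
  rwa [app_eq, ev_append, ev_pw, ev_cons, ev_nil, mul_one, mul_assoc] at this

inductive Tr
  | ref (e : ℕ) (c u : List ℕ)
  | good (r : ℕ) (c : List ℕ)
  | big
  | node (a b c : Tr)

noncomputable def Tr.ok (T : PT) (B : List ℕ) (R : List (List ℕ)) (n m : ℕ) (t : Tr) :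
    ℕ → List ℕ → ℕ → Bool :=
  Tr.rec (motive := fun _ => ℕ → List ℕ → ℕ → Bool)
    (fun e c u k w e0 => band (Nat.ble (Nat.succ e) e0) (band (inR 0 m c) (band (inR (Nat.succ k) n u)
      (T.chk2 B (app w (app (pw [k] e0) c)) (app c (app w (app (pw [k] e) u)))))))
    (fun r c k w e0 => band (Nat.beq (Nat.succ k) n) (band (Nat.ble (Nat.succ r) R.length)
      (T.chk2 B (app w (app (pw [k] e0) c)) (app c (gd [] R r)))))
    (fun k w e0 => band (Nat.beq (Nat.succ k) n) (band (T.small (app w (pw [k] e0)))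
      (neqv T B (pw (app w (pw [k] e0)) 3) [])))
    (fun _ _ _ a b c k w e0 => force (Nat.succ k) fun k1 => forceL (app w (pw [k] e0)) fun w1 =>
      band (Nat.ble (Nat.succ k1) n) (band (a k1 w1 0) (band (b k1 w1 1) (c k1 w1 2)))) t

theorem Tr.ok_node {T : PT} {B : List ℕ} {R : List (List ℕ)} {a b c : Tr} {k k1 e0 : ℕ} {w w1 : List ℕ}
    (h : k + 1 = k1 ∧ k1 < n ∧ app w (pw [k] e0) = w1) (ha : a.ok T B R n m k1 w1 0 = true)
    (hb : b.ok T B R n m k1 w1 1 = true) (hc : c.ok T B R n m k1 w1 2 = true) :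
    (Tr.node a b c).ok T B R n m k w e0 = true := by
  obtain ⟨rfl, h2, rfl⟩ := h
  show force (k + 1) (fun k1 => forceL (app w (pw [k] e0)) fun w1 => band (Nat.ble (Nat.succ k1) n)
    (band (a.ok T B R n m k1 w1 0) (band (b.ok T B R n m k1 w1 1) (c.ok T B R n m k1 w1 2)))) = true
  rw [force_eq, forceL_eq, ha, hb, hc, Nat.ble_eq_true_of_le h2]; rfl

variable {Ω : Type*} [MulAction G Ω] {T : PT} {pt : ℕ → Ω}

theorem Tr.sound [Finite G] (h : PC g n m) (hA : AM T g pt)
    (hinj : ∀ i < T.N, ∀ j < T.N, pt i = pt j → i = j) {B : List ℕ} (hB : IsBase G T.N pt B)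
    {R : List (List ℕ)} (t : Tr) : ∀ k w e0, t.ok T B R n m k w e0 = true →
      (∀ e < e0, Cl g R n (k + 1) (app w (pw [k] e))) → Cl g R n (k + 1) (app w (pw [k] e0)) := by
  induction t with
  | ref e c u =>
    intro k w e0 ht H y hy
    have ht' : band (Nat.ble (Nat.succ e) e0) (band (inR 0 m c) (band (inR (Nat.succ k) n u)
      (T.chk2 B (app w (app (pw [k] e0) c)) (app c (app w (app (pw [k] e) u)))))) = true := ht
    simp only [band_eq, Bool.and_eq_true, Nat.ble_eq] at ht'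
    obtain ⟨h1, h2, h3, h4⟩ := ht'
    have h5 := hA.chk2 hB _ _ h4
    simp only [app_eq, ev_append] at h5
    refine Good.conj (c := ev g c) ?_
    have := H e h1 _ (Subgroup.mul_mem _ (ev_Pk h3) (h.wd (fun a ha => (inR_sound h2 a ha).2) hy))
    rw [app_eq, ev_append] at this ⊢
    convert this using 1
    calc _ = (ev g c)⁻¹ * (ev g w * (ev g (pw [k] e0) * ev g c)) * ((ev g c)⁻¹ * y * ev g c) := by group
      _ = _ := by rw [h5]; group
  | good r c =>
    intro k w e0 ht _ y hy _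
    have ht' : band (Nat.beq (Nat.succ k) n) (band (Nat.ble (Nat.succ r) R.length)
      (T.chk2 B (app w (app (pw [k] e0) c)) (app c (gd [] R r)))) = true := ht
    simp only [band_eq, Bool.and_eq_true, Nat.ble_eq, Nat.beq_eq] at ht'
    obtain ⟨h1, h2, h4⟩ := ht'
    have h5 := hA.chk2 hB _ _ h4
    simp only [app_eq, ev_append] at h5
    rw [show k + 1 = n from h1, Pk_top, Subgroup.mem_bot] at hy
    refine ⟨r, h2, isConj_iff.2 ⟨(ev g c)⁻¹, ?_⟩⟩
    rw [hy, app_eq, ev_append, mul_one, inv_inv, mul_assoc, mul_assoc, h5, inv_mul_cancel_left]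
  | big =>
    intro k w e0 ht _ y hy h3
    have ht' : band (Nat.beq (Nat.succ k) n) (band (T.small (app w (pw [k] e0)))
      (neqv T B (pw (app w (pw [k] e0)) 3) [])) = true := ht
    simp only [band_eq, Bool.and_eq_true, Nat.beq_eq] at ht'
    obtain ⟨h1, h2, h4⟩ := ht'
    rw [show k + 1 = n from h1, Pk_top, Subgroup.mem_bot] at hy
    have s : Sm T (app w (pw [k] e0)) := T.small_sound h2
    refine absurd ?_ (hA.neqv hinj hB.1 (s.pw 3) Sm.nil h4)
    rw [ev_pw, ev_nil, ← h3, hy, mul_one]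
  | node a b c iha ihb ihc =>
    intro k w e0 ht _
    have ht' : force (k + 1) (fun k1 => forceL (app w (pw [k] e0)) fun w1 => band (Nat.ble (Nat.succ k1) n)
      (band (a.ok T B R n m k1 w1 0) (band (b.ok T B R n m k1 w1 1) (c.ok T B R n m k1 w1 2)))) = true := ht
    simp only [force_eq, forceL_eq, band_eq, Bool.and_eq_true, Nat.ble_eq] at ht'
    obtain ⟨h1, h2, h3, h4⟩ := ht'
    have c0 := iha _ _ _ h2 (fun e he => by omega)
    have c1 := ihb _ _ _ h3 (fun e he => by rwa [show e = 0 by omega])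
    have c2 := ihc _ _ _ h4 (fun e he => by
      rcases (by omega : e = 0 ∨ e = 1) with rfl | rfl <;> assumption)
    exact h.step h1 fun e he => by
      rcases (by omega : e = 0 ∨ e = 1 ∨ e = 2) with rfl | rfl | rfl <;> assumption

theorem cover [Finite G] (h : PC g n m) (hA : AM T g pt)
    (hinj : ∀ i < T.N, ∀ j < T.N, pt i = pt j → i = j) {B : List ℕ} (hB : IsBase G T.N pt B)
    {R : List (List ℕ)} {a b c : Tr} (hn : 0 < n) (ha : a.ok T B R n m 0 [] 0 = true)
    (hb : b.ok T B R n m 0 [] 1 = true) (hc : c.ok T B R n m 0 [] 2 = true)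
    (hlo : 3 ^ n ≤ Nat.card (Lc (2 ^ n - 1) g)) (hG : ¬ 3 ^ (n + 1) ∣ Nat.card G) (x : G) :
    Good g R x := by
  haveI : Fact (Nat.Prime 3) := ⟨by norm_num⟩
  have c0 := Tr.sound h hA hinj hB a _ _ _ ha (fun e he => by omega)
  have c1 := Tr.sound h hA hinj hB b _ _ _ hb (fun e he => by rwa [show e = 0 by omega])
  have c2 := Tr.sound h hA hinj hB c _ _ _ hc (fun e he => by
    rcases (by omega : e = 0 ∨ e = 1) with rfl | rfl <;> assumption)
  have c3 : Cl g R n 0 [] := h.step hn fun e he => by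
    rcases (by omega : e = 0 ∨ e = 1 ∨ e = 2) with rfl | rfl | rfl <;> assumption
  have hle : Lc (2 ^ n - 1) g ≤ Pk g n 0 := Lc_le.2 fun a ha => Subgroup.subset_closure
    ⟨a, Nat.zero_le _, by rw [Nat.testBit_two_pow_sub_one] at ha; simpa using ha, rfl⟩
  have hcard : Nat.card (Pk g n 0) = 3 ^ n := le_antisymm (by simpa using h.card n le_rfl)
    (hlo.trans (Subgroup.card_le_of_le hle))
  intro h3
  obtain ⟨S, hS⟩ := (IsPGroup.of_card hcard).exists_le_sylow
  obtain ⟨k, hk⟩ := IsPGroup.iff_card.1 S.isPGroup'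
  have hkn : k ≤ n := by
    by_contra hc
    exact hG ((pow_dvd_pow 3 (by omega)).trans (hk ▸ Subgroup.card_subgroup_dvd_card (S : Subgroup G)))
  have hPS : Pk g n 0 = S := Subgroup.eq_of_le_of_card_ge hS
    (by rw [hk, hcard]; exact Nat.pow_le_pow_right (by norm_num) hkn)
  have hx : IsPGroup 3 (Subgroup.zpowers x) := by
    obtain ⟨i, -, hi⟩ := (Nat.dvd_prime_pow (m := 1) (by norm_num : Nat.Prime 3)).1
      (orderOf_dvd_of_pow_eq_one (by simpa using h3 : x ^ 3 ^ 1 = 1))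
    exact IsPGroup.of_card (by rw [Nat.card_zpowers, hi])
  obtain ⟨S', hS'⟩ := hx.exists_le_sylow
  obtain ⟨y, hy⟩ := MulAction.exists_smul_eq G S' S
  have hm : y * x * y⁻¹ ∈ Pk g n 0 := by
    rw [hPS, ← hy]
    exact ⟨x, hS' (Subgroup.mem_zpowers x), rfl⟩
  have := c3 _ hm
  rw [ev_nil, one_mul] at this
  exact Good.conj (c := y⁻¹) (by simpa using this) h3

noncomputable def pcOK (T : PT) (B : List ℕ) (n m : ℕ) (U : List (List (List ℕ))) : Bool :=
  band (Nat.ble n m) (allLin (fun k => band (T.chk B [k, k, k]) (allLin (fun b =>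
    band (inR k n (gd [] (gd [] U k) b)) (T.chk2 B [k, b] (b :: gd [] (gd [] U k) b))) 0 m)) 0 n)

theorem pc_of (hA : AM T g pt) {B : List ℕ} (hB : IsBase G T.N pt B) {U : List (List (List ℕ))}
    (h : pcOK T B n m U = true) : PC g n m := by
  simp only [pcOK, band_eq, Bool.and_eq_true, Nat.ble_eq] at h
  have key := fun k (hk : k < n) => allLin_sound h.2 k (Nat.zero_le _) (by omega)
  simp only [Bool.and_eq_true] at key
  refine ⟨h.1, fun b hb k hk => ?_, fun k hk => ?_⟩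
  · have := allLin_sound (key k hk).2 b (Nat.zero_le _) (by omega)
    simp only [Bool.and_eq_true] at this
    have e := hA.chk2 hB _ _ this.2
    simp only [ev_cons, ev_nil, mul_one] at e
    rw [mul_assoc, e, inv_mul_cancel_left]
    exact ev_Pk this.1
  · simpa [pow_succ, mul_assoc] using hA.chk hB _ (key k hk).1

/-- number of points fixed by a word -/
noncomputable def fixc (T : PT) (w : List ℕ) (N : ℕ) : ℕ :=
  Nat.rec (motive := fun _ => ℕ) 0
    (fun i ih => force ih fun s => Bool.rec s (Nat.succ s) (Nat.beq (T.tr w i) i)) N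

theorem fixc_eq (T : PT) (w : List ℕ) (N : ℕ) :
    fixc T w N = ((Finset.range N).filter fun i => T.tr w i = i).card := by
  induction N with
  | zero => rfl
  | succ N ih =>
    show force (fixc T w N) (fun s => (Bool.rec s (Nat.succ s) (Nat.beq (T.tr w N) N) : ℕ)) = _
    rw [force_eq, Finset.range_add_one, Finset.filter_insert, ih]
    split_ifs with e
    · rw [e, Nat.beq_refl, Finset.card_insert_of_notMem (by simp)]
    · cases hb : Nat.beq (T.tr w N) N with
      | false => rfl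
      | true => exact absurd (Nat.eq_of_beq_eq_true hb) e

theorem inv_pts [Finite G] (hA : AM T g pt) {X : ℕ} (htop : Lc X g = ⊤) (hX : ∀ a, X.testBit a = true → a < T.G)
    (c : G) : ∀ i < T.N, ∃ j < T.N, c • pt i = pt j := by
  have hc : c⁻¹ ∈ Lc X g := by rw [htop]; trivial
  have := mem_of_closed (S := {y | ∃ a, X.testBit a = true ∧ y = g a})
    (P := fun y => ∀ i < T.N, ∃ j < T.N, y⁻¹ • pt i = pt j) (fun i hi => ⟨i, hi, by simp⟩) (by
      rintro y hy _ ⟨a, ha, rfl⟩ i hi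
      obtain ⟨j, hj, e⟩ := hy i hi
      exact ⟨_, (hA j hj a (hX a ha)).1, by rw [mul_inv_rev, mul_smul, e, (hA j hj a (hX a ha)).2]⟩) c⁻¹ hc
  rw [inv_inv] at this
  exact this

theorem fixc_le [Finite G] (hA : AM T g pt) (hinj : ∀ i < T.N, ∀ j < T.N, pt i = pt j → i = j)
    {X : ℕ} (htop : Lc X g = ⊤) (hX : ∀ a, X.testBit a = true → a < T.G) {u v : List ℕ} (hu : Sm T u) (hv : Sm T v) {c : G} {k : ℕ}
    (e : c * ev g u ^ k * c⁻¹ = ev g v) : fixc T u T.N ≤ fixc T v T.N := by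
  have hS := inv_pts hA htop hX c
  choose! f hf1 hf2 using hS
  rw [fixc_eq, fixc_eq]
  refine Finset.card_le_card_of_injOn f (fun i hi => ?_) fun i hi j hj e => ?_
  · simp only [Finset.coe_filter, Finset.mem_range, Set.mem_setOf_eq] at hi ⊢
    refine ⟨hf1 i hi.1, hinj _ (hA.tr hv _ (hf1 i hi.1)).1 _ (hf1 i hi.1) ?_⟩
    have h1 := (hA.tr hu i hi.1).2
    rw [hi.2, inv_smul_eq_iff] at h1
    have h2 : ev g u ^ k • pt i = pt i :=
      (MulAction.stabilizer G (pt i)).pow_mem (show ev g u ∈ MulAction.stabilizer G (pt i) from h1.symm) k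
    rw [← (hA.tr hv _ (hf1 i hi.1)).2, ← hf2 i hi.1, inv_smul_eq_iff, ← e, mul_smul, inv_smul_smul,
      mul_smul, h2]
  · simp only [Finset.coe_filter, Finset.mem_range, Set.mem_setOf_eq] at hi hj
    exact hinj i hi.1 j hj.1 (smul_left_cancel c (by rw [hf2 i hi.1, hf2 j hj.1, e]))

end Cfsg.Agent.H25.PcT
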