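import Mathlib
import Cfsg.Agent.H25.PcT
import Cfsg.Agent.H25.CoX
import Cfsg.Agent.H29.ES
import Cfsg.Agent.H2.Components

/-! Involution centralisers: order bounds, quotient maps, extraspecial kernels. -/

set_option linter.all false

namespace Cfsg.Agent.H25.CenB
open Cfsg Cfsg.Agent.H25 Cfsg.Agent.H25.Leech

noncomputable def cntP (φ : ℕ → Bool) (lo n : ℕ) : ℕ :=
  Nat.rec (motive := fun _ => ℕ) 0
    (fun i ih => force ih fun s => force (Nat.add lo i) fun j => Bool.rec s (Nat.succ s) (φ j)) n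

noncomputable def cnt2 (φ : ℕ → Bool) (lo nb : ℕ) : ℕ :=
  Nat.rec (motive := fun _ => ℕ) 0
    (fun q ih => force ih fun s => Nat.add s (cntP φ (Nat.add lo (Nat.mul q 64)) 64)) nb

theorem cntP_eq (φ : ℕ → Bool) (lo n : ℕ) :
    cntP φ lo n = ((Finset.Ico lo (lo + n)).filter fun i => φ i = true).card := by
  induction n with
  | zero => simp; rfl
  | succ n ih =>
    show force (cntP φ lo n) (fun s => force (lo + n) fun j => (Bool.rec s (Nat.succ s) (φ j) : ℕ)) = _
    rw [force_eq, force_eq, ← add_assoc, Nat.Ico_succ_right_eq_insert_Ico (by omega), Finset.filter_insert, ih]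
    cases φ (lo + n)
    · simp
    · rw [if_pos rfl, Finset.card_insert_of_notMem (by simp)]

theorem cnt_add (φ : ℕ → Bool) {a b c : ℕ} (h1 : a ≤ b) (h2 : b ≤ c) :
    ((Finset.Ico a c).filter fun i => φ i = true).card =
      ((Finset.Ico a b).filter fun i => φ i = true).card + ((Finset.Ico b c).filter fun i => φ i = true).card := by
  rw [← Finset.Ico_union_Ico_eq_Ico h1 h2, Finset.filter_union, Finset.card_union_of_disjoint
    (Finset.disjoint_filter_filter (Finset.Ico_disjoint_Ico_consecutive _ _ _))]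

theorem cnt2_eq (φ : ℕ → Bool) (lo nb : ℕ) :
    cnt2 φ lo nb = ((Finset.Ico lo (lo + nb * 64)).filter fun i => φ i = true).card := by
  induction nb with
  | zero => simp; rfl
  | succ n ih =>
    show force (cnt2 φ lo n) (fun s => s + cntP φ (lo + n * 64) 64) = _
    rw [force_eq, ih, cntP_eq, cnt_add φ (a := lo) (b := lo + n * 64) (c := lo + (n + 1) * 64) (by omega) (by omega),
      show lo + n * 64 + 64 = lo + (n + 1) * 64 by ring]

section
variable {G : Type*} [Group G] {Ω : Type*} [MulAction G Ω] {T : PT} {g : ℕ → G} {pt : ℕ → Ω}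

theorem lev_bound [Finite G] {C : Subgroup G} {N b : ℕ} {B : List ℕ} {S : Finset ℕ}
    (h : ∀ c ∈ C ⊓ fixB G pt B, ∃ j ∈ S, c • pt b = pt j) :
    Nat.card (C ⊓ fixB G pt B : Subgroup G) ≤ S.card * Nat.card (C ⊓ fixB G pt (b :: B) : Subgroup G) := by
  classical
  let r : ℕ → G := fun j => if e : ∃ c ∈ C ⊓ fixB G pt B, c⁻¹ • pt b = pt j then e.choose else 1
  refine Lv.card_le_of_cover (r := r) fun k hk => ?_
  obtain ⟨j, hj, e⟩ := h k⁻¹ (Subgroup.inv_mem _ hk)
  have ex : ∃ c ∈ C ⊓ fixB G pt B, c⁻¹ • pt b = pt j := ⟨k, hk, e⟩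
  have hr : r j ∈ C ⊓ fixB G pt B ∧ (r j)⁻¹ • pt b = pt j := by
    simp only [r, dif_pos ex]; exact ex.choose_spec
  have hm := Subgroup.mul_mem _ hk (Subgroup.inv_mem _ hr.1)
  refine ⟨j, hj, k * (r j)⁻¹, ⟨hm.1, fun x hx => ?_⟩, by group⟩
  rcases List.mem_cons.1 hx with rfl | hx
  · rw [mul_smul, hr.2, ← e, smul_inv_smul]
  · exact hm.2 x hx

open Classical in
noncomputable def subL (C : Subgroup G) (g : ℕ → G) (a : ℕ) : C := if h : g a ∈ C then ⟨g a, h⟩ else 1

theorem subL_coe {C : Subgroup G} {a : ℕ} (h : g a ∈ C) : (subL C g a : G) = g a := by rw [subL, dif_pos h]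

theorem AM.sub (h : AM T g pt) {C : Subgroup G} (hm : ∀ a < T.G, g a ∈ C) : AM T (subL C g) pt :=
  fun i hi a ha => ⟨(h i hi a ha).1, by
    have := (h i hi a ha).2
    rw [← subL_coe (hm a ha)] at this
    exact this⟩

theorem IsBase.sub {N : ℕ} {B : List ℕ} (h : IsBase G N pt B) (C : Subgroup G) : IsBase C N pt B :=
  ⟨h.1, fun y hy => Subtype.ext (h.2 y hy)⟩

theorem mem_cen (h : AM T g pt) {B : List ℕ} (hB : IsBase G T.N pt B) {z : ℕ}
    (hc : allLin (fun a => T.chk2 B [a, z] [z, a]) 0 T.G = true) :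
    ∀ a < T.G, g a ∈ Subgroup.centralizer {g z} := fun a ha =>
  Subgroup.mem_centralizer_singleton_iff.2 (by
    simpa using h.chk2 hB _ _ (allLin_sound hc a (Nat.zero_le _) (by omega)))

theorem hom_of_am [Finite G] {S : Type*} [Group S] [Finite S] {Ω' : Type*} [MulAction S Ω'] {s : ℕ → S}
    {pt' : ℕ → Ω'} (h : AM T g pt) (hinj : ∀ i < T.N, ∀ j < T.N, pt i = pt j → i = j) (h' : AM T s pt')
    {B : List ℕ} (hB : IsBase S T.N pt' B) (htop : Lc (2 ^ T.G - 1) s = ⊤) {m k : ℕ} (hk : k ≤ T.G)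
    (h1 : ∀ a < k, s a = 1) (hm : m ≤ Nat.card (Lc (2 ^ k - 1) g)) (hG : Nat.card G ≤ m * Nat.card S) :
    ∃ f : G →* S, Function.Surjective f ∧ f.ker = Lc (2 ^ k - 1) g ∧ Nat.card f.ker = m ∧
      ∀ a < T.G, f (g a) = s a := by
  have lt : ∀ {n a : ℕ}, (2 ^ n - 1).testBit a = true ↔ a < n := by
    intro n a; rw [Nat.testBit_two_pow_sub_one]; simp
  let H := Lc (2 ^ T.G - 1) fun a => (g a, s a)
  have key := mem_of_closed (S := {y | ∃ a, (2 ^ T.G - 1).testBit a = true ∧ y = (g a, s a)})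
    (P := fun p => ∀ i < T.N, ∃ j < T.N, p.1⁻¹ • pt i = pt j ∧ p.2⁻¹ • pt' i = pt' j)
    (fun i hi => ⟨i, hi, by simp⟩) (by
      rintro y hy _ ⟨a, ha, rfl⟩ i hi
      obtain ⟨j, hj, e1, e2⟩ := hy i hi
      exact ⟨_, (h j hj a (lt.1 ha)).1, by
        rw [Prod.fst_mul, mul_inv_rev, mul_smul, e1, (h j hj a (lt.1 ha)).2], by
        rw [Prod.snd_mul, mul_inv_rev, mul_smul, e2, (h' j hj a (lt.1 ha)).2]⟩)
  let p1 : H →* G := (MonoidHom.fst _ _).comp H.subtype
  let p2 : H →* S := (MonoidHom.snd _ _).comp H.subtype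
  have i1 : Function.Injective p1 := (injective_iff_map_eq_one _).2 fun p hp => by
    have e : p.1.1 = 1 := hp
    refine Subtype.ext (Prod.ext e (inv_eq_one.1 (hB.2 _ fun b hb => ?_)))
    obtain ⟨j, hj, e1, e2⟩ := key p.1 p.2 b (hB.1 b hb)
    rw [e, inv_one, one_smul] at e1
    rw [e2, hinj _ (hB.1 b hb) _ hj e1]
  have hH : ∀ a < T.G, (g a, s a) ∈ H := fun a ha => mem_Lc (fun a => (g a, s a)) (lt.2 ha)
  have s2 : Function.Surjective p2 := by
    rw [← MonoidHom.range_eq_top, eq_top_iff, ← htop, Lc_le]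
    exact fun a ha => ⟨⟨_, hH a (lt.1 ha)⟩, rfl⟩
  have hQ : Lc (2 ^ k - 1) g ≤ p2.ker.map p1 := Lc_le.2 fun a ha =>
    ⟨⟨_, hH a ((lt.1 ha).trans_le hk)⟩, h1 a (lt.1 ha), rfl⟩
  have c1 := Subgroup.card_le_of_le hQ
  rw [Subgroup.card_map_of_injective i1] at c1
  have c2 := p2.ker.card_mul_index
  rw [Subgroup.index_ker, MonoidHom.range_eq_top.2 s2, Subgroup.card_top] at c2
  have c3 : Nat.card G ≤ Nat.card H := by
    rw [← c2]; exact hG.trans (Nat.mul_le_mul_right _ (hm.trans c1))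
  let e := MulEquiv.ofBijective p1 (i1.bijective_of_nat_card_le c3)
  have he : ∀ a (ha : a < T.G), e.symm (g a) = ⟨_, hH a ha⟩ := fun a ha => e.symm_apply_eq.2 rfl
  have hf : ∀ a < T.G, p2.comp e.symm.toMonoidHom (g a) = s a := fun a ha => by
    show p2 (e.symm (g a)) = _
    rw [he a ha]; rfl
  have sf : Function.Surjective (p2.comp e.symm.toMonoidHom) := s2.comp e.symm.surjective
  have c4 := (p2.comp e.symm.toMonoidHom).ker.card_mul_index
  rw [Subgroup.index_ker, MonoidHom.range_eq_top.2 sf, Subgroup.card_top] at c4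
  have c5 : Nat.card (p2.comp e.symm.toMonoidHom).ker ≤ m :=
    Nat.le_of_mul_le_mul_right (c4.le.trans hG) Nat.card_pos
  have hle : Lc (2 ^ k - 1) g ≤ (p2.comp e.symm.toMonoidHom).ker := Lc_le.2 fun a ha => by
    rw [MonoidHom.mem_ker, hf a ((lt.1 ha).trans_le hk), h1 a (lt.1 ha)]
  have := Subgroup.eq_of_le_of_card_ge hle (c5.trans hm)
  exact ⟨_, sf, this.symm, le_antisymm c5 (this ▸ hm), hf⟩

noncomputable def bw (i n : ℕ) : List ℕ :=
  Nat.rec (motive := fun _ => List ℕ) [] (fun a ih => Bool.rec ih (a :: ih) (Nat.testBit i a)) n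

theorem bw_lt (i n : ℕ) : ∀ a ∈ bw i n, a < n := by
  induction n with
  | zero => intro a ha; cases ha
  | succ n ih =>
    intro a ha
    have : a ∈ (Bool.rec (bw i n) (n :: bw i n) (Nat.testBit i n) : List ℕ) := ha
    cases hb : Nat.testBit i n <;> rw [hb] at this
    · exact (ih a this).trans (by omega)
    · rcases List.mem_cons.1 this with rfl | h
      · omega
      · exact (ih a h).trans (by omega)

theorem bw_mem (g : ℕ → G) (i k : ℕ) : ev g (bw i k) ∈ Lc (2 ^ k - 1) g :=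
  ev_mem fun a ha => mem_Lc g (by rw [Nat.testBit_two_pow_sub_one]; simpa using bw_lt i k a ha)

noncomputable def enumOK (T : PT) (y k n : ℕ) (iv : ℕ → ℕ) : Bool :=
  band (band (Nat.ble (Nat.succ y) T.N) (Nat.ble k T.G))
    (allRange (fun i => Nat.beq (iv (T.tr (bw i k) y)) i) 0 n)

theorem enum_inj (h : AM T g pt) (hinj : ∀ i < T.N, ∀ j < T.N, pt i = pt j → i = j) {y k n : ℕ}
    {iv : ℕ → ℕ} (hc : enumOK T y k n iv = true) :
    Function.Injective fun i : Fin n => (⟨_, bw_mem g i k⟩ : Lc (2 ^ k - 1) g) := fun i j e => by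
  simp only [enumOK, band_eq, Bool.and_eq_true, Nat.ble_eq] at hc
  have s : ∀ i, Sm T (bw i k) := fun i a ha => (bw_lt i k a ha).trans_le hc.1.2
  have e1 : ev g (bw i k) = ev g (bw j k) := congrArg Subtype.val e
  have e2 := hinj _ (h.tr (s i) y hc.1.1).1 _ (h.tr (s j) y hc.1.1).1
    (by rw [← (h.tr (s i) y hc.1.1).2, e1, (h.tr (s j) y hc.1.1).2])
  refine Fin.ext ?_
  rw [← Nat.eq_of_beq_eq_true (allRange_sound hc.2 i (Nat.zero_le _) i.2), e2,
    Nat.eq_of_beq_eq_true (allRange_sound hc.2 j (Nat.zero_le _) j.2)]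

theorem enum_le [Finite G] (h : AM T g pt) (hinj : ∀ i < T.N, ∀ j < T.N, pt i = pt j → i = j) {y k n : ℕ}
    {iv : ℕ → ℕ} (hc : enumOK T y k n iv = true) : n ≤ Nat.card (Lc (2 ^ k - 1) g) := by
  simpa using Nat.card_le_card_of_injective _ (enum_inj h hinj hc)

noncomputable def bor (a b : Bool) : Bool := Bool.rec b true a
theorem bor_eq (a b : Bool) : bor a b = (a || b) := by cases a <;> rfl

noncomputable def esOK (eq ne : List ℕ → List ℕ → Bool) (k z n : ℕ) : Bool :=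
  band (band (Nat.ble (Nat.succ z) k) (band (ne [z] []) (band (eq [z, z] []) (ne [0, 1] [1, 0]))))
    (allRange (fun i => forceL (bw i k) fun w => band (bor (eq (app w w) []) (eq (app w w) [z]))
      (bor (anyL (fun a => ne (a :: w) (app w [a])) (List.range k)) (bor (eq w []) (eq w [z])))) 0 n)

theorem es_of [Finite G] {eq ne : List ℕ → List ℕ → Bool} {k z n : ℕ} (hk : 2 ≤ k)
    (heq : ∀ u v, (∀ a ∈ u, a < k) → (∀ a ∈ v, a < k) → eq u v = true → ev g u = ev g v)
    (hne : ∀ u v, (∀ a ∈ u, a < k) → (∀ a ∈ v, a < k) → ne u v = true → ev g u ≠ ev g v)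
    (hi : Function.Injective fun i : Fin n => (⟨_, bw_mem g i k⟩ : Lc (2 ^ k - 1) g))
    (hn : Nat.card (Lc (2 ^ k - 1) g) ≤ n) (hc : esOK eq ne k z n = true) :
    H29.ES (Lc (2 ^ k - 1) g) (g z) := by
  simp only [esOK, band_eq, Bool.and_eq_true, Nat.ble_eq] at hc
  obtain ⟨⟨hz, h1, h2, h3⟩, h4⟩ := hc
  have mem : ∀ a < k, g a ∈ Lc (2 ^ k - 1) g := fun a ha =>
    mem_Lc g (by rw [Nat.testBit_two_pow_sub_one]; simpa using ha)
  have key : ∀ x ∈ Lc (2 ^ k - 1) g, (x * x = 1 ∨ x * x = g z) ∧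
      (x ∈ Subgroup.centralizer (Lc (2 ^ k - 1) g : Set G) → x = 1 ∨ x = g z) := fun x hx => by
    obtain ⟨i, hi⟩ := (hi.bijective_of_nat_card_le (by simpa using hn)).2 ⟨x, hx⟩
    have e : ev g (bw i k) = x := congrArg Subtype.val hi
    have := allRange_sound h4 i (Nat.zero_le _) i.2
    simp only [forceL_eq, Bool.and_eq_true, bor_eq, Bool.or_eq_true, app_eq] at this
    have s := bw_lt i k
    have s2 : ∀ a ∈ bw i k ++ bw i k, a < k := by simpa [or_imp, forall_and] using s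
    have sz : ∀ a ∈ [z], a < k := by simpa using hz
    refine ⟨this.1.imp (fun h => ?_) fun h => ?_, fun hx => ?_⟩
    · simpa [e] using heq _ _ s2 (by simp) h
    · simpa [e] using heq _ _ s2 sz h
    · rcases this.2 with h | h | h
      · obtain ⟨a, ha, h⟩ := anyL_sound h
        have ha' := List.mem_range.1 ha
        refine absurd ?_ (hne _ _ (by simpa [ha'] using s) (by simpa [or_imp, forall_and, ha'] using s) h)
        simpa [e] using hx _ (mem a ha')
      · exact .inl (by simpa [e] using heq _ _ s (by simp) h)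
      · exact .inr (by simpa [e] using heq _ _ s sz h)
  refine ⟨⟨by simpa using hne _ _ (by simpa using hz) (by simp) h1,
    by simpa using heq _ _ (by simpa using hz) (by simp) h2, mem z hz, fun x hx => (key x hx).1,
    fun x hx h _ => (key x hx).2 h⟩, fun x hx => (key x hx).2, fun h => ?_⟩
  exact hne _ _ (by simp; omega) (by simp; omega) h3 (by simpa using h (mem 1 hk) _ (mem 0 (by omega)))

end

section
variable {C S : Type*} [Group C] [Finite C] [Group S] [IsSimpleGroup S] {f : C →* S} {z : C}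

theorem pcore_eq (hf : Function.Surjective f) (h : IsPGroup 2 f.ker) (h3 : 3 ∣ Nat.card S) :
    pCore 2 C = f.ker := by
  haveI := H2.pCore_characteristic (p := 2) (G := C)
  haveI := Finite.of_surjective f hf
  refine le_antisymm ?_ (H2.le_pCore h)
  rcases (Subgroup.Normal.map inferInstance f hf : ((pCore 2 C).map f).Normal).eq_bot_or_eq_top with e | e
  · exact (Subgroup.map_eq_bot_iff _).1 e
  · obtain ⟨k, hk⟩ := IsPGroup.iff_card.1 ((H2.pCore_isPGroup (p := 2) (G := C)).map f)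
    rw [e, Subgroup.card_top] at hk
    exact absurd ((Nat.prime_three.dvd_of_dvd_pow (hk ▸ h3))) (by norm_num)

theorem fstar_eq (hf : Function.Surjective f) (h : H29.ES f.ker z) (h3 : 3 ∣ Nat.card S) {s q : C}
    (hq : q ∈ f.ker) (h1 : s * q ≠ q * s) (h2 : s * q ≠ q * (z * s)) : generalizedFittingSubgroup C = f.ker := by
  have e := pcore_eq hf h.pgrp h3
  rw [← e, H2.generalizedFitting_eq_pCore_iff, e]
  rcases (Subgroup.Normal.map inferInstance f hf :
    ((Subgroup.centralizer (f.ker : Set C)).map f).Normal).eq_bot_or_eq_top with e | e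
  · exact (Subgroup.map_eq_bot_iff _).1 e
  · obtain ⟨c, hc, e2⟩ : f s ∈ (Subgroup.centralizer (f.ker : Set C)).map f := e ▸ Subgroup.mem_top _
    have hk : s * c⁻¹ ∈ f.ker := by rw [MonoidHom.mem_ker, map_mul, map_inv, e2, mul_inv_cancel]
    have h5 : q * c⁻¹ = c⁻¹ * q := Subgroup.inv_mem _ hc q hq
    have h6 : s * c⁻¹ * q * (s * c⁻¹)⁻¹ = s * q * s⁻¹ := by rw [mul_assoc s, ← h5]; group
    rcases h.conj hk hq with e | e <;> rw [h6, mul_inv_eq_iff_eq_mul] at e
    · exact absurd e h1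
    · exact absurd (e.trans (mul_assoc _ _ _)) h2

end

section
variable {G : Type*} [Group G] [MulAction G L] {T : PT} {g : ℕ → G} {vec : ℕ → ℕ}

noncomputable def tst (vec : ℕ → ℕ) (b : ℕ) (Q : List ℕ) : ((ℕ → Bool) → ℕ) → ℕ :=
  List.rec (motive := fun _ => ((ℕ → Bool) → ℕ) → ℕ) (fun k => k fun _ => true)
    (fun q _ ih k => forceT (prepV (vec q)) fun t => force (t.dot 64 (vec b)) fun v =>
      ih fun f => k fun c => band (Nat.beq (t.dot 64 c) v) (f c)) Q

theorem tst_eq (vec : ℕ → ℕ) (b : ℕ) (Q : List ℕ) : ∀ k, tst vec b Q k =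
    k fun c => allL (fun q => Nat.beq ((prepV (vec q)).dot 64 c) ((prepV (vec q)).dot 64 (vec b))) Q := by
  induction Q with
  | nil => intro k; rfl
  | cons q Q ih =>
    intro k
    show forceT (prepV (vec q)) (fun t => force (t.dot 64 (vec b)) fun v =>
      tst vec b Q fun f => k fun c => band (Nat.beq (t.dot 64 c) v) (f c)) = _
    rw [forceT_eq, force_eq, ih]; rfl

structure CL where
  b : ℕ
  n : ℕ
  Q : List ℕ
  s : Bool

noncomputable def inB (T : PT) (z : ℕ) (B Q : List ℕ) : Bool :=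
  allL (fun q => anyL (fun r => bor (Nat.beq q r) (Nat.beq q (T.tgt r z))) B) Q

noncomputable def CL.ok (T : PT) (vec : ℕ → ℕ) (z : ℕ) (B : List ℕ) (l : CL) : Bool :=
  band (band (Nat.ble (Nat.succ l.b) T.N) (inB T z B l.Q))
    (Nat.ble (force ((prepV (vec l.b)).dot 64 (vec (T.tgt l.b z))) fun v => tst vec l.b l.Q fun f =>
      cnt2 (fun i => band (Nat.ble (Nat.succ i) T.N) (band (f (vec i))
        (bor (Bool.not l.s) (Nat.beq ((prepV (vec i)).dot 64 (vec (T.tgt i z))) v)))) 0 (Nat.succ (Nat.div T.N 64))) l.n)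

noncomputable def clOK (T : PT) (vec : ℕ → ℕ) (z : ℕ) (B0 : List ℕ) (ls : List CL) : List ℕ → Bool :=
  List.rec (motive := fun _ => List ℕ → Bool) (fun B => inB T z B B0)
    (fun l _ ih B => band (l.ok T vec z B) (ih (l.b :: B))) ls

theorem cen_bound [Finite G] (h : AM T g fun i => pt (vec i)) (hv : ∀ i < T.N, VC (vec i))
    (hd : ∀ (c : G) (v w : L), dotInt (c • v).1 (c • w).1 = dotInt v.1 w.1)
    (hcl : ∀ c : G, ∀ i < T.N, ∃ j < T.N, c • pt (vec i) = pt (vec j)) {z : ℕ} (hz : z < T.G) {B0 : List ℕ}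
    (hB : IsBase G T.N (fun i => pt (vec i)) B0) (ls : List CL) : ∀ B, (∀ b ∈ B, b < T.N) →
      clOK T vec z B0 ls B = true → Nat.card (Subgroup.centralizer {g z} ⊓ fixB G (fun i => pt (vec i)) B :
        Subgroup G) ≤ (ls.map CL.n).prod := by
  have mv : ∀ c ∈ Subgroup.centralizer {g z}, ∀ i < T.N, ∀ j < T.N, c • pt (vec i) = pt (vec j) →
      c • pt (vec (T.tgt i z)) = pt (vec (T.tgt j z)) := fun c hc i hi j hj e => by
    have h1 := (h i hi z hz).2
    have h2 := (h j hj z hz).2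
    simp only at h1 h2
    rw [← h1, ← h2, ← e, smul_smul, smul_smul,
      (Commute.inv_right (Subgroup.mem_centralizer_singleton_iff.1 hc)).eq]
  have fx : ∀ B Q, (∀ b ∈ B, b < T.N) → inB T z B Q = true → ∀ c ∈ Subgroup.centralizer {g z} ⊓
      fixB G (fun i => pt (vec i)) B, ∀ q ∈ Q, q < T.N ∧ c • pt (vec q) = pt (vec q) := fun B Q hB hQ c hc q hq => by
    obtain ⟨r, hr, e⟩ := anyL_sound (allL_sound hQ q hq)
    simp only [bor_eq, Bool.or_eq_true, Nat.beq_eq] at e
    rcases e with rfl | rfl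
    · exact ⟨hB _ hr, hc.2 _ hr⟩
    · exact ⟨(h r (hB r hr) z hz).1, mv c hc.1 r (hB r hr) r (hB r hr) (hc.2 r hr)⟩
  have dt : ∀ (c : G) {i j i' j'}, i < T.N → j < T.N → i' < T.N → j' < T.N → c • pt (vec i) = pt (vec i') →
      c • pt (vec j) = pt (vec j') → Nat.beq ((prepV (vec i')).dot 64 (vec j')) ((prepV (vec i)).dot 64 (vec j)) = true :=
    fun c _ _ _ _ a1 a2 a3 a4 e1 e2 => Nat.beq_eq ▸ Int.ofNat_inj.1 (by
      rw [dot64 (hv _ a3) (hv _ a4), dot64 (hv _ a1) (hv _ a2), ← e1, ← e2, hd])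
  induction ls with
  | nil =>
    intro B hb hc
    exact (Subgroup.card_eq_one.2 (eq_bot_iff.2 fun c hm => hB.2 c fun q hq => (fx B B0 hb hc c hm q hq).2)).le
  | cons l ls ih =>
    intro B hb hc
    have hc' : band (l.ok T vec z B) (clOK T vec z B0 ls (l.b :: B)) = true := hc
    simp only [CL.ok, band_eq, Bool.and_eq_true, Nat.ble_eq, force_eq, tst_eq, cnt2_eq] at hc'
    obtain ⟨⟨⟨h1, h2⟩, h3⟩, h4⟩ := hc'
    rw [List.map_cons, List.prod_cons]
    refine (lev_bound (N := T.N) (b := l.b) fun c hm => ?_).trans (Nat.mul_le_mul h3 (ih _ (by simpa [show l.b < T.N from h1] using hb) h4))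
    obtain ⟨j, hj, e⟩ := hcl c l.b h1
    refine ⟨j, Finset.mem_filter.2 ⟨Finset.mem_Ico.2 ⟨Nat.zero_le _, ?_⟩, hj, allL_of fun q hq => ?_, ?_⟩, e⟩
    · show j < 0 + (T.N / 64 + 1) * 64
      omega
    · obtain ⟨a1, a2⟩ := fx B l.Q hb h2 c hm q hq
      exact dt c a1 h1 a1 hj a2 e
    · rw [dt c h1 (h _ h1 z hz).1 hj (h _ hj z hz).1 e (mv c hm.1 _ h1 _ hj e), bor_eq, Bool.or_true]

theorem cen_le [Finite G] (h : AM T g fun i => pt (vec i)) (hv : ∀ i < T.N, VC (vec i))
    (hd : ∀ (c : G) (v w : L), dotInt (c • v).1 (c • w).1 = dotInt v.1 w.1)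
    (hcl : ∀ c : G, ∀ i < T.N, ∃ j < T.N, c • pt (vec i) = pt (vec j)) {z : ℕ} (hz : z < T.G) {B0 : List ℕ}
    (hB : IsBase G T.N (fun i => pt (vec i)) B0) {ls : List CL} (hc : clOK T vec z B0 ls [] = true) :
    Nat.card (Subgroup.centralizer {g z}) ≤ (ls.map CL.n).prod := by
  have := cen_bound h hv hd hcl hz hB ls [] (by simp) hc
  rwa [fixB_nil, inf_top_eq] at this

end

end Cfsg.Agent.H25.CenB
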