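import Cfsg.Prelude.Def_TwoFusion
import Cfsg.Prelude.Def_Local
import Cfsg.Prelude.Def_CaseTheorems
import Cfsg.Agent.H2.Cores

set_option autoImplicit false

namespace Cfsg.Agent.H7.Bf
open Cfsg Subgroup
universe u
variable {G : Type u} [Group G] [Finite G]

theorem b9 {P : Subgroup G} (hP : IsPGroup 2 P) (hN : (P.map (QuotientGroup.mk' (oddCore G))).Normal)
    (c : G) : ∃ o ∈ oddCore G, ∀ m ∈ P, o * c * m * (o * c)⁻¹ ∈ P := by
  let L := (P.map (QuotientGroup.mk' (oddCore G))).comap (QuotientGroup.mk' (oddCore G))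
  have : L.Normal := hN.comap _
  have hL : ∀ l ∈ L, ∃ p ∈ P, ∃ o ∈ oddCore G, p * o = l := fun l ⟨p, hp, e⟩ =>
    ⟨p, hp, (QuotientGroup.mk'_eq_mk' _).1 e⟩
  have hle : P ≤ L := le_comap_map _ _
  obtain ⟨Q, hQ⟩ := (hP.comap_subtype (K := L)).exists_le_sylow
  have e : (Q : Subgroup L).map L.subtype = P := by
    refine le_antisymm (fun q hq => ?_) fun p hp => ⟨⟨p, hle hp⟩, hQ hp, rfl⟩
    obtain ⟨p, hp, o, ho, rfl⟩ := hL q (map_subtype_le _ hq)
    have h1 : o ∈ (Q : Subgroup L).map L.subtype :=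
      (mul_mem_cancel_left (show p ∈ (Q : Subgroup L).map L.subtype from ⟨⟨p, hle hp⟩, hQ hp, rfl⟩)).1 hq
    obtain ⟨k, hk⟩ := (Q.isPGroup'.map L.subtype) ⟨o, h1⟩
    have h2 : orderOf o ∣ 2 ^ k := orderOf_dvd_of_pow_eq_one (congrArg Subtype.val hk)
    have h3 : orderOf o ∣ Nat.card (oddCore G) := orderOf_dvd_natCard _ ho
    rw [orderOf_eq_one_iff.1 (Nat.eq_one_of_dvd_coprimes (H2.pPrimeCore_coprime.pow_right k) h3 h2), mul_one]
    exact hp
  have h := Sylow.normalizer_sup_eq_top Q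
  rw [e, sup_comm] at h
  obtain ⟨l, hl, n, hn, rfl⟩ := mem_sup_of_normal_left.1 (h ▸ mem_top c)
  obtain ⟨p, hp, o, ho, e2⟩ := hL _ (inv_mem hl)
  refine ⟨o, ho, fun m hm => ?_⟩
  rw [show o * (l * n) = p⁻¹ * n by rw [eq_inv_mul_iff_mul_eq, ← mul_assoc, e2, inv_mul_cancel_left]]
  exact (mem_normalizer_iff.1 (mul_mem (le_normalizer (inv_mem hp)) hn) m).1 hm

theorem b11 {n : ℕ} (hn : n ≤ 9) (g : alternatingGroup (Fin n)) : orderOf g ≠ 8 := fun h => by
  rw [← Subgroup.orderOf_coe, ← Equiv.Perm.lcm_cycleType] at h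
  have h8 : 8 ∈ g.1.cycleType := by
    by_contra h8
    have : g.1.cycleType.lcm ∣ 4 := Multiset.lcm_dvd.2 fun m hm => by
      have h1 : m ∣ 8 := h ▸ Multiset.dvd_lcm hm
      have h2 : m ≠ 8 := fun e => h8 (e ▸ hm)
      have := Nat.le_of_dvd (by norm_num) h1
      interval_cases m <;> simp_all
    rw [h] at this
    omega
  obtain ⟨r, e⟩ := Multiset.exists_cons_of_mem h8
  have h1 := g.1.sum_cycleType_le
  rw [e, Multiset.sum_cons, Fintype.card_fin] at h1
  obtain rfl : r = 0 := Multiset.eq_zero_of_forall_notMem fun m hm => by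
    have := Equiv.Perm.two_le_of_mem_cycleType (e ▸ Multiset.mem_cons_of_mem hm : m ∈ g.1.cycleType)
    have := Multiset.single_le_sum (fun _ _ => Nat.zero_le _) m hm
    omega
  have h2 := Equiv.Perm.mem_alternatingGroup.1 g.2
  rw [Equiv.Perm.sign_of_cycleType, e] at h2
  exact absurd h2 (by decide)

end Cfsg.Agent.H7.Bf
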