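import Mathlib
import Cfsg.Agent.H25.CenB

/-! Enumerated subgroups, classes of involutions, alternating groups. -/

set_option linter.all false

namespace Cfsg.Agent.H25.CenB
open Cfsg Cfsg.Agent.H25

section
variable {G : Type*} [Group G] {Ω : Type*} [MulAction G Ω] {T : PT} {g : ℕ → G} {pt : ℕ → Ω}

noncomputable def clsOK (T : PT) (B : List ℕ) (E : ℕ → List ℕ) (A : List ℕ) (n y : ℕ) (iv : ℕ → ℕ) : Bool :=
  band (band (Nat.ble 1 n) (T.chk2 B (E 0) [])) (allRange (fun i => forceL (E i) fun w => allL (fun a =>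
    force (iv (T.tr (app w [a]) y)) fun j => band (Nat.ble (Nat.succ j) n) (T.chk2 B (app w [a]) (E j))) A) 0 n)

theorem cls_all [Finite G] (h : AM T g pt) {B : List ℕ} (hB : IsBase G T.N pt B) {E : ℕ → List ℕ} {A : List ℕ}
    {n y X : ℕ} {iv : ℕ → ℕ} (hX : ∀ a, X.testBit a = true → a ∈ A) (hc : clsOK T B E A n y iv = true) :
    ∀ x ∈ Lc X g, ∃ i < n, x = ev g (E i) := by
  simp only [clsOK, band_eq, Bool.and_eq_true, Nat.ble_eq] at hc
  refine mem_of_closed ⟨0, hc.1.1, (h.chk2 hB _ _ hc.1.2).symm⟩ ?_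
  rintro _ ⟨i, hi, rfl⟩ _ ⟨a, ha, rfl⟩
  have := allRange_sound hc.2 i (Nat.zero_le _) hi
  rw [forceL_eq] at this
  have := allL_sound this a (hX a ha)
  simp only [force_eq, band_eq, Bool.and_eq_true, Nat.ble_eq] at this
  exact ⟨_, this.1, by simpa [app_eq] using h.chk2 hB _ _ this.2⟩

theorem card_le_of_all {K : Subgroup G} {n : ℕ} {e : ℕ → G} (h : ∀ x ∈ K, ∃ i < n, x = e i) : Nat.card K ≤ n := by
  choose f h1 h2 using h
  simpa using Nat.card_le_card_of_injective (fun x : K => (⟨f x x.2, h1 x x.2⟩ : Fin n)) fun a b e =>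
    Subtype.ext (by rw [h2 a a.2, h2 b b.2, Fin.mk.inj e])

theorem mask_mem {k a : ℕ} (h : (2 ^ k - 1).testBit a = true) : a ∈ List.range k := by
  rw [Nat.testBit_two_pow_sub_one] at h; simpa using h

noncomputable def ocOK (T : PT) (B : List ℕ) (k z : ℕ) (cw : List (List ℕ)) : Bool :=
  band (Nat.ble k T.G) (allRange (fun i => forceL (bw i k) fun w => bor (neqv T B (app w w) [])
    (bor (T.chk2 B w []) (T.chk2 B (app w (gd [] cw i)) (app (gd [] cw i) [z])))) 0 (2 ^ k))

theorem one_class [Finite G] (h : AM T g pt) (hinj : ∀ i < T.N, ∀ j < T.N, pt i = pt j → i = j) {B : List ℕ}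
    (hB : IsBase G T.N pt B) {k z y : ℕ} {iv : ℕ → ℕ} {cw : List (List ℕ)}
    (h1 : enumOK T y k (2 ^ k) iv = true) (h2 : clsOK T B (bw · k) (List.range k) (2 ^ k) y iv = true)
    (h3 : ocOK T B k z cw = true) (hG : (Nat.card G).factorization 2 = k) :
    ∀ x y : G, orderOf x = 2 → orderOf y = 2 → IsConj x y := by
  have a1 := cls_all h hB (fun a => mask_mem) h2
  let P : Sylow 2 G := Sylow.ofCard (Lc (2 ^ k - 1) g)
    (by rw [hG]; exact le_antisymm (card_le_of_all a1) (enum_le h hinj h1))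
  simp only [ocOK, band_eq, Bool.and_eq_true, Nat.ble_eq] at h3
  have key : ∀ x : G, orderOf x = 2 → IsConj (g z) x := fun x hx => by
    obtain ⟨Q, hQ⟩ := (IsPGroup.of_card (p := 2) (n := 1) (G := Subgroup.zpowers x)
      (by rw [Nat.card_zpowers, hx]; rfl)).exists_le_sylow
    obtain ⟨c, rfl⟩ := MulAction.exists_smul_eq G P Q
    obtain ⟨u, hu, e⟩ := hQ (Subgroup.mem_zpowers x)
    have e' : c * u * c⁻¹ = x := e
    obtain ⟨i, hi, rfl⟩ := a1 u hu
    have ho : orderOf (ev g (bw i k)) = 2 := by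
      rw [← hx, ← e']; exact (orderOf_injective (MulAut.conj c).toMonoidHom (MulAut.conj c).injective _).symm
    have := allRange_sound h3.2 i (Nat.zero_le _) hi
    simp only [forceL_eq, bor_eq, Bool.or_eq_true, app_eq] at this
    have s : Sm T (bw i k) := fun a ha => (bw_lt i k a ha).trans_le h3.1
    rcases this with e1 | e1 | e1
    · exact absurd (by rw [ev_append, ← pow_two, ← ho, pow_orderOf_eq_one]; rfl)
        (h.neqv hinj hB.1 (s.app s) Sm.nil e1)
    · rw [h.chk2 hB _ _ e1] at ho; simp at ho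
    · have e2 := h.chk2 hB _ _ e1
      simp only [ev_append, ev_cons, ev_nil, mul_one] at e2
      exact (isConj_iff.2 ⟨_, (eq_mul_inv_of_mul_eq e2).symm⟩).trans (isConj_iff.2 ⟨c, e'⟩)
  exact fun x y hx hy => (key x hx).symm.trans (key y hy)

end

theorem dcover {C S : Type*} [Group C] [Finite C] [Group S] [IsSimpleGroup S] {f : C →* S} {t u : C}
    (hf : Function.Surjective f) (hk : f.ker = Subgroup.zpowers t) (hc : Nat.card f.ker = 2)
    (ht : t ∈ Subgroup.center C) (hu : u * u = t) (hS : ∃ a b : S, a * b ≠ b * a) : IsNonsplitDoubleCover C S := by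
  have e : Subgroup.center C = f.ker := by
    refine le_antisymm ?_ (hk ▸ Subgroup.zpowers_le.2 ht)
    rcases (Subgroup.Normal.map inferInstance f hf : ((Subgroup.center C).map f).Normal).eq_bot_or_eq_top with e | e
    · exact (Subgroup.map_eq_bot_iff _).1 e
    · obtain ⟨a, b, hab⟩ := hS
      obtain ⟨c, hc, rfl⟩ : b ∈ (Subgroup.center C).map f := e ▸ Subgroup.mem_top _
      obtain ⟨a, rfl⟩ := hf a
      exact absurd (by rw [← map_mul, ← map_mul, Subgroup.mem_center_iff.1 hc]) hab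
  refine ⟨e ▸ hc, ⟨(QuotientGroup.quotientMulEquivOfEq e).trans (QuotientGroup.quotientKerEquivOfSurjective f hf)⟩,
    fun L hL => ?_⟩
  have := Subgroup.disjoint_def.1 hL.disjoint ht
    (hu ▸ Subgroup.mul_self_mem_of_index_two (hL.index_eq_card.trans (e ▸ hc)) u)
  rw [hk, this] at hc
  simp at hc

/-- an even permutation given by the images under its inverse -/
noncomputable def alt (n : ℕ) (R : List (Equiv.Perm (Fin n))) (a : ℕ) : alternatingGroup (Fin n) :=
  if h : Equiv.Perm.sign (gd 1 R a) = 1 then (⟨gd 1 R a, h⟩ : alternatingGroup (Fin n))⁻¹ else 1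

instance relAct (n : ℕ) : MulAction (alternatingGroup (Fin n)) (Fin n → Fin n → Bool) where
  smul s f := fun x y => f ((s⁻¹).1 x) ((s⁻¹).1 y)
  one_smul _ := rfl
  mul_smul a b f := by
    funext x y
    show f (((a * b)⁻¹).1 x) (((a * b)⁻¹).1 y) = f ((b⁻¹).1 ((a⁻¹).1 x)) ((b⁻¹).1 ((a⁻¹).1 y))
    rw [mul_inv_rev]; rfl

theorem am_alt {n : ℕ} {R : List (Equiv.Perm (Fin n))} {T : PT} {c : ℕ → Fin n → Fin n → Bool}
    (h1 : ∀ a < T.G, Equiv.Perm.sign (gd 1 R a) = 1)
    (h2 : ∀ i < T.N, ∀ a < T.G, T.tgt i a < T.N ∧ ∀ x y,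
      c i ((gd 1 R a)⁻¹ x) ((gd 1 R a)⁻¹ y) = c (T.tgt i a) x y) : AM T (alt n R) c := fun i hi a ha =>
  ⟨(h2 i hi a ha).1, by
    rw [alt, dif_pos (h1 a ha), inv_inv]
    funext x y
    exact (h2 i hi a ha).2 x y⟩

end Cfsg.Agent.H25.CenB
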