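import Mathlib

set_option autoImplicit false

namespace Cfsg.Agent.GO.Jn
open Subgroup

theorem jD_core {G : Type*} [Group G] [Finite G] (S : Sylow 2 G) {E : Subgroup G} {z : G} {x : Fin 5 → G}
    (z1 : z ≠ 1) (zz : z * z = 1) (xE : ∀ i, x i ∈ E) (gen : ∀ K : Subgroup G, (∀ i, x i ∈ K) → E ≤ K)
    (nE : ∀ s ∈ (S : Subgroup G), ∀ e ∈ E, s * e * s⁻¹ ∈ E)
    (cc : ∀ s ∈ (S : Subgroup G), (∀ i, s * x i = x i * s) → s = 1 ∨ s = z)
    (hz : ∀ g : G, g * z = z * g) {d : G} (hd : ∀ i, d * x i = x i * d) :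
    Odd (orderOf d) ∨ Odd (orderOf (d * z)) := by
  obtain ⟨a, k, hk, e⟩ := Nat.exists_eq_two_pow_mul_odd (orderOf_pos d).ne'
  have hc : ∀ e ∈ E, e * d ^ k = d ^ k * e := fun e he => mem_centralizer_singleton_iff.1
    (gen (centralizer {d ^ k}) (fun i => mem_centralizer_singleton_iff.2 (Commute.pow_left (hd i) k).eq.symm) he)
  have hS : (S : Subgroup G) ≤ normalizer (E : Set G) := fun s hs => mem_normalizer_fintype (nE s hs)
  have hN : d ^ k ∈ normalizer (E : Set G) := mem_normalizer_fintype fun e he => by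
    rwa [← hc e he, mul_inv_cancel_right]
  have hp : IsPGroup 2 (zpowers (⟨_, hN⟩ : normalizer (E : Set G))) := by
    refine IsPGroup.of_card_dvd_pow (n := a) ?_
    rw [Nat.card_zpowers]
    exact orderOf_dvd_of_pow_eq_one (Subtype.ext (by
      rw [SubgroupClass.coe_pow, ← pow_mul, mul_comm k, ← e]; exact pow_orderOf_eq_one d))
  obtain ⟨Q, hQ⟩ := hp.exists_le_sylow
  obtain ⟨g, hg⟩ := MulAction.exists_smul_eq (normalizer (E : Set G)) Q (S.subtype hS)
  have h1 : g * ⟨_, hN⟩ * g⁻¹ ∈ (S.subtype hS : Subgroup (normalizer (E : Set G))) :=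
    hg ▸ smul_mem_pointwise_smul _ (MulAut.conj g) _ (hQ (mem_zpowers _))
  have h2 : d ^ k = 1 ∨ d ^ k = z := by
    refine (cc _ h1 fun i => ?_).imp (fun h => conj_eq_one_iff.1 h) fun h => ?_
    · have := hc _ ((mem_normalizer_iff.1 (inv_mem g.2) (x i)).1 (xE i))
      show (g : G) * d ^ k * (g : G)⁻¹ * x i = x i * (g * d ^ k * (g : G)⁻¹)
      calc _ = g * (d ^ k * ((g : G)⁻¹ * x i * (g : G)⁻¹⁻¹)) * (g : G)⁻¹ := by group
        _ = _ := by rw [← this]; group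
    · have h : (g : G) * d ^ k * (g : G)⁻¹ = z := h
      rw [mul_inv_eq_iff_eq_mul, ← hz] at h
      exact mul_left_cancel h
  refine h2.imp (fun h => hk.of_dvd_nat (orderOf_dvd_of_pow_eq_one h))
    fun h => hk.of_dvd_nat (orderOf_dvd_of_pow_eq_one ?_)
  obtain ⟨j, rfl⟩ := hk
  rw [Commute.mul_pow (hz d), h, pow_succ, pow_mul, pow_two, zz, one_pow, one_mul, zz]

end Cfsg.Agent.GO.Jn
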