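import Mathlib
import Cfsg.Agent.H25.Util
import Cfsg.Agent.H25.McC

set_option maxRecDepth 100000
set_option linter.all false

namespace Cfsg.Agent.H25.McCR0
open Cfsg.Agent.H25

open McC

theorem c3_r0 : c3.relsOK (nat_lit 3) c3_PE (nat_lit 0) (nat_lit 1273) = true := by decide +kernel
theorem c3_r1 : c3.relsOK (nat_lit 3) c3_PE (nat_lit 1273) (nat_lit 2546) = true := by decide +kernel
theorem c3_r2 : c3.relsOK (nat_lit 3) c3_PE (nat_lit 2546) (nat_lit 3819) = true := by decide +kernel
theorem c3_r3 : c3.relsOK (nat_lit 3) c3_PE (nat_lit 3819) (nat_lit 5092) = true := by decide +kernel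
theorem c3_r4 : c3.relsOK (nat_lit 3) c3_PE (nat_lit 5092) (nat_lit 6365) = true := by decide +kernel
theorem c3_r5 : c3.relsOK (nat_lit 3) c3_PE (nat_lit 6365) (nat_lit 7638) = true := by decide +kernel
end Cfsg.Agent.H25.McCR0
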