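import Mathlib
import Cfsg.Agent.H25.Util
import Cfsg.Agent.H25.McC

set_option maxRecDepth 100000
set_option linter.all false

namespace Cfsg.Agent.H25.McCR1
open Cfsg.Agent.H25

open McC

theorem c3_r6 : c3.relsOK (nat_lit 3) c3_PE (nat_lit 7638) (nat_lit 8911) = true := by decide +kernel
theorem c3_r7 : c3.relsOK (nat_lit 3) c3_PE (nat_lit 8911) (nat_lit 10184) = true := by decide +kernel
theorem c3_r8 : c3.relsOK (nat_lit 3) c3_PE (nat_lit 10184) (nat_lit 11457) = true := by decide +kernel
theorem c3_r9 : c3.relsOK (nat_lit 3) c3_PE (nat_lit 11457) (nat_lit 12730) = true := by decide +kernel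
theorem c3_r10 : c3.relsOK (nat_lit 3) c3_PE (nat_lit 12730) (nat_lit 14003) = true := by decide +kernel
theorem c3_r11 : c3.relsOK (nat_lit 3) c3_PE (nat_lit 14003) (nat_lit 15276) = true := by decide +kernel
end Cfsg.Agent.H25.McCR1
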