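import Mathlib
import Cfsg.Agent.H25.Util
import Cfsg.Agent.H25.McC

set_option maxRecDepth 100000
set_option linter.all false

namespace Cfsg.Agent.H25.McCR2
open Cfsg.Agent.H25

open McC

theorem c3_r12 : c3.relsOK (nat_lit 3) c3_PE (nat_lit 15276) (nat_lit 16549) = true := by decide +kernel
theorem c3_r13 : c3.relsOK (nat_lit 3) c3_PE (nat_lit 16549) (nat_lit 17822) = true := by decide +kernel
theorem c3_r14 : c3.relsOK (nat_lit 3) c3_PE (nat_lit 17822) (nat_lit 19095) = true := by decide +kernel
theorem c3_r15 : c3.relsOK (nat_lit 3) c3_PE (nat_lit 19095) (nat_lit 20368) = true := by decide +kernel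
theorem c3_r16 : c3.relsOK (nat_lit 3) c3_PE (nat_lit 20368) (nat_lit 21641) = true := by decide +kernel
theorem c3_r17 : c3.relsOK (nat_lit 3) c3_PE (nat_lit 21641) (nat_lit 22275) = true := by decide +kernel
end Cfsg.Agent.H25.McCR2
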