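import Cfsg.Agent.L1.Se0

set_option autoImplicit false
set_option maxRecDepth 100000

namespace Cfsg.Agent.L1Se
open Subgroup Equiv Matrix

universe u

noncomputable def pL_fo {α : Type} (x : ℕ) (k : ℕ → α) : α :=
  Nat.rec (motive := fun _ => α) (k 0) (fun n _ => k (Nat.succ n)) x
theorem pL_fo_eq {α : Type} (x : ℕ) (k : ℕ → α) : pL_fo x k = k x := by cases x <;> rfl

noncomputable def pL_mu (c d : ℕ) : ℕ := pL_fo c fun c => pL_fo d fun d =>
  (c % 7 * (d % 7) + c / 7 % 7 * (d / 49 % 7)) % 7 + 7 * ((c % 7 * (d / 7 % 7) + c / 7 % 7 * (d / 343 % 7)) % 7) +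
  49 * ((c / 49 % 7 * (d % 7) + c / 343 % 7 * (d / 49 % 7)) % 7) +
  343 * ((c / 49 % 7 * (d / 7 % 7) + c / 343 % 7 * (d / 343 % 7)) % 7)

def pL_M (c : ℕ) : Matrix (Fin 2) (Fin 2) (ZMod 7) :=
  !![(c % 7 : ℕ), (c / 7 % 7 : ℕ); (c / 49 % 7 : ℕ), (c / 343 % 7 : ℕ)]

theorem pL_dig (a b c d : ℕ) : pL_M (a % 7 + 7 * (b % 7) + 49 * (c % 7) + 343 * (d % 7)) = !![(a : ZMod 7), b; c, d] := by
  have h1 : (a % 7 + 7 * (b % 7) + 49 * (c % 7) + 343 * (d % 7)) % 7 = a % 7 := by omega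
  have h2 : (a % 7 + 7 * (b % 7) + 49 * (c % 7) + 343 * (d % 7)) / 7 % 7 = b % 7 := by omega
  have h3 : (a % 7 + 7 * (b % 7) + 49 * (c % 7) + 343 * (d % 7)) / 49 % 7 = c % 7 := by omega
  have h4 : (a % 7 + 7 * (b % 7) + 49 * (c % 7) + 343 * (d % 7)) / 343 % 7 = d % 7 := by omega
  rw [pL_M, h1, h2, h3, h4]
  simp only [ZMod.natCast_mod]

theorem pL_M_mu (c d : ℕ) : pL_M (pL_mu c d) = pL_M c * pL_M d := by
  rw [pL_mu, pL_fo_eq, pL_fo_eq, pL_dig, pL_M, pL_M, Matrix.mul_fin_two]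
  simp only [Nat.cast_add, Nat.cast_mul]

noncomputable def pL_o (c : ℕ) : Bool := pL_fo c fun c => Nat.beq c 344 || Nat.beq c 2064

def pL_R (x : ProjectiveSpecialLinearGroup (Fin 2) (ZMod 7)) (c : ℕ) : Prop :=
  c < 2401 ∧ ∃ A : SpecialLinearGroup (Fin 2) (ZMod 7), (QuotientGroup.mk A = x) ∧ A.1 = pL_M c

theorem pL_R.mul {x y : ProjectiveSpecialLinearGroup (Fin 2) (ZMod 7)} {c d : ℕ} (h : pL_R x c) (h' : pL_R y d) :
    pL_R (x * y) (pL_mu c d) := by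
  obtain ⟨-, A, rfl, e⟩ := h
  obtain ⟨-, B, rfl, e'⟩ := h'
  exact ⟨by rw [pL_mu, pL_fo_eq, pL_fo_eq]; omega, A * B, rfl, by rw [pL_M_mu, ← e, ← e']; rfl⟩

theorem pL_inj {c d : ℕ} (hc : c < 2401) (hd : d < 2401) (h : pL_M c = pL_M d) : c = d := by
  have k : ∀ i j, pL_M c i j = pL_M d i j := fun i j => by rw [h]
  have h1 := k 0 0
  have h2 := k 0 1
  have h3 := k 1 0
  have h4 := k 1 1
  simp only [pL_M, of_apply, cons_val', cons_val_zero, cons_val_one, cons_val_fin_one,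
    ZMod.natCast_eq_natCast_iff'] at h1 h2 h3 h4
  omega

theorem pL_R.one {x : ProjectiveSpecialLinearGroup (Fin 2) (ZMod 7)} {c : ℕ} (h : pL_R x c) :
    x = 1 ↔ pL_o c = true := by
  obtain ⟨hc, A, rfl, e⟩ := h
  rw [QuotientGroup.eq_one_iff, Matrix.SpecialLinearGroup.mem_center_iff, pL_o, pL_fo_eq, e, Bool.or_eq_true, Nat.beq_eq,
    Nat.beq_eq]
  have h1 : scalar (Fin 2) (1 : ZMod 7) = pL_M 344 := by decide +kernel
  have h2 : scalar (Fin 2) (6 : ZMod 7) = pL_M 2064 := by decide +kernel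
  constructor
  · rintro ⟨r, hr, e⟩
    rcases (by decide +kernel : ∀ r : ZMod 7, r ^ Fintype.card (Fin 2) = 1 → r = 1 ∨ r = 6) r hr with rfl | rfl
    · exact .inl (pL_inj hc (by norm_num) (e.symm.trans h1))
    · exact .inr (pL_inj hc (by norm_num) (e.symm.trans h2))
  · rintro (rfl | rfl)
    exacts [⟨1, by decide +kernel, h1⟩, ⟨6, by decide +kernel, h2⟩]

def pL_L : List ℕ := [91, 92, 93, 94, 95, 96, 97, 119, 120, 121, 122, 123, 124, 125, 161, 162, 163, 164, 165, 166,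
  167, 344, 351, 358, 365, 372, 379, 386, 393, 401, 409, 417, 425, 433, 434, 442, 451, 460, 462, 471,
  480, 489, 491, 501, 504, 514, 524, 527, 537, 540, 551, 555, 566, 570, 574, 585, 589, 601, 606, 611,
  616, 628, 633, 638, 644, 657, 663, 669, 675, 681, 690, 697, 704, 711, 718, 725, 732, 739, 743, 754,
  758, 769, 773, 777, 788, 796, 804, 805, 813, 821, 829, 837, 842, 847, 859, 864, 869, 881, 886, 895,
  897, 906, 915, 917, 926, 935, 941, 947, 953, 959, 972, 978, 984, 987, 997, 1007, 1010, 1020, 1023, 1034,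
  1041, 1048, 1055, 1062, 1069, 1076, 1083, 1088, 1093, 1105, 1110, 1115, 1120, 1132, 1135, 1145, 1148, 1158, 1168, 1171,
  1181, 1189, 1190, 1198, 1206, 1214, 1222, 1230, 1236, 1242, 1248, 1254, 1260, 1273, 1279, 1283, 1294, 1298, 1302, 1313,
  1317, 1328, 1330, 1339, 1348, 1357, 1359, 1368]

theorem pL_ex (x : ProjectiveSpecialLinearGroup (Fin 2) (ZMod 7)) : ∃ c ∈ pL_L, pL_R x c := by
  obtain ⟨A, rfl⟩ := QuotientGroup.mk_surjective x
  have h : pL_R (QuotientGroup.mk A) ((A.1 0 0).val % 7 + 7 * ((A.1 0 1).val % 7) + 49 * ((A.1 1 0).val % 7) +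
      343 * ((A.1 1 1).val % 7)) := ⟨by omega, A, rfl, (by
    rw [pL_dig (A.1 0 0).val (A.1 0 1).val (A.1 1 0).val (A.1 1 1).val]
    simp only [ZMod.natCast_zmod_val]
    exact eta_fin_two A.1)⟩
  obtain ⟨c, h⟩ : ∃ c, pL_R (QuotientGroup.mk A) c := ⟨_, h⟩
  have h2 : pL_R 1 2064 := ⟨by norm_num, -1, (QuotientGroup.eq_one_iff _).2
    (Subgroup.mem_center_iff.2 fun g => by simp), by decide +kernel⟩
  have h3 := h2.mul h
  rw [one_mul] at h3
  obtain ⟨hc, B, -, e⟩ := id h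
  have h4 := B.2
  rw [e, pL_M, det_fin_two_of, sub_eq_iff_eq_add, ← Nat.cast_mul, ← Nat.cast_mul, ← Nat.cast_one, ← Nat.cast_add,
    ZMod.natCast_eq_natCast_iff'] at h4
  rcases (by decide +kernel : ∀ c < 2401, c % 7 * (c / 343 % 7) % 7 = (1 + c / 7 % 7 * (c / 49 % 7)) % 7 →
    c ∈ pL_L ∨ pL_mu 2064 c ∈ pL_L) c hc h4 with h5 | h5
  exacts [⟨_, h5, h⟩, ⟨_, h5, h3⟩]

noncomputable def pL_s (x y : ℕ) : Bool := pL_fo (pL_mu x x) fun x2 => pL_fo (pL_mu y y) fun y2 =>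
  (pL_o x2 != pL_o y2) || (pL_o (pL_mu x2 x) != pL_o (pL_mu y2 y)) || (pL_o (pL_mu x2 x2) != pL_o (pL_mu y2 y2))

theorem pL_chk : (pL_L.all fun a => pL_fo (pL_mu a a) fun b => pL_o b || !pL_o (pL_mu b b) ||
    pL_L.all fun z => pL_o z || !pL_o (pL_mu (pL_mu z z) z) || !pL_o (pL_mu (pL_mu b z) (pL_mu b z)) ||
    pL_L.all fun f => !pL_o (pL_mu f f) || pL_o f || pL_o (pL_mu f b) || !pL_o (pL_mu (pL_mu f b) (pL_mu f b)) ||
      pL_s (pL_mu z f) (pL_mu z (pL_mu (pL_mu a f) (pL_mu b a)))) = true := by decide +kernel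

theorem pL_bne (a b : Bool) : (a != b) = true ↔ ¬ (a = true ↔ b = true) := by cases a <;> cases b <;> decide

theorem pL : L27.{u} := by
  intro X _ e θ z a f hθ hz ha h1 h2 h3 h4 t1 t2 t3
  have a4 : a * a * (a * a) = 1 := by have := pow_orderOf_eq_one a; rw [ha] at this; simpa [pow_succ, mul_assoc] using this
  have z3 : z * z * z = 1 := by have := pow_orderOf_eq_one z; rw [hz] at this; simpa [pow_succ, mul_assoc] using this
  have ai : a⁻¹ = a * a * a := inv_eq_of_mul_eq_one_left (by simpa [mul_assoc] using a4)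
  have key : θ (z * f) = z * (a * f * (a * a * a)) := by rw [map_mul, t1, t3, ai]
  obtain ⟨ca, ma, ra⟩ := pL_ex (e a)
  obtain ⟨cz, mz, rz⟩ := pL_ex (e z)
  obtain ⟨cf, mf, rf⟩ := pL_ex (e f)
  have rb := ra.mul ra
  have rx := rz.mul rf
  have ry := rz.mul ((ra.mul rf).mul (rb.mul ra))
  have h := List.all_eq_true.1 pL_chk ca ma
  simp only [pL_fo_eq, Bool.or_eq_true, Bool.not_eq_true', ← Bool.not_eq_true, ← rb.one, ← (rb.mul rb).one,
    ← map_mul, map_eq_one_iff e e.injective] at h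
  rcases h with (h | h) | h
  · have := orderOf_dvd_of_pow_eq_one (show a ^ 2 = 1 by rw [pow_two, h])
    rw [ha] at this
    omega
  · exact h a4
  have h := List.all_eq_true.1 h cz mz
  simp only [Bool.or_eq_true, Bool.not_eq_true', ← Bool.not_eq_true, ← rz.one, ← ((rz.mul rz).mul rz).one,
    ← ((rb.mul rz).mul (rb.mul rz)).one, ← map_mul, map_eq_one_iff e e.injective] at h
  rcases h with ((h | h) | h) | h
  · rw [h, orderOf_one] at hz
    omega
  · exact h z3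
  · refine h ?_
    rw [pow_two, inv_eq_of_mul_eq_one_right a4] at h1
    rw [← mul_assoc, h1, inv_mul_cancel]
  have h := List.all_eq_true.1 h cf mf
  simp only [pL_s, pL_fo_eq, Bool.or_eq_true, Bool.not_eq_true', ← Bool.not_eq_true, ← rf.one, ← (rf.mul rf).one,
    ← (rf.mul rb).one, ← ((rf.mul rb).mul (rf.mul rb)).one, pL_bne, ← (rx.mul rx).one,
    ← (ry.mul ry).one, ← ((rx.mul rx).mul rx).one, ← ((ry.mul ry).mul ry).one, ← ((rx.mul rx).mul (rx.mul rx)).one,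
    ← ((ry.mul ry).mul (ry.mul ry)).one, ← map_mul, map_eq_one_iff e e.injective, ← key,
    map_eq_one_iff θ hθ] at h
  rcases h with (((h | h) | h) | h) | h
  · exact h h2
  · exact h4 (h ▸ one_mem _)
  · exact h4 (eq_inv_of_mul_eq_one_left h ▸ inv_mem (mul_mem (mem_zpowers a) (mem_zpowers a)))
  · refine h ?_
    rw [← pow_two a, h3.symm.mul_mul_mul_comm, h2, one_mul, pow_two, a4]
  · simp at h

end Cfsg.Agent.L1Se
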